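import Cfsg.Agent.H28.RG.Form
import Cfsg.Agent.KFacts.RgdPar

/-!
# S3509 MIX, box M4q: no fixed points on the unipotent radicals (helper520)

`lam` a functional on the root lattice, `t` a torus element with `χ a t ≠ 1` for all roots `a` with `0 < lam a`: the
centraliser of `t` in `⟨X a : 0 < lam a⟩` is trivial (`noFix_lam`).
-/

set_option autoImplicit false
set_option linter.unusedSectionVars false

namespace Cfsg.Agent.H520.MX

open CoxeterSystem Cfsg.Agent.ChevalleyStructure.CoxeterGeom Cfsg.Agent.Tits.Roots Cfsg.Agent.Tits.Core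
  Cfsg.Agent.Tits.RootComb Cfsg.Agent.Tits.Exchange Cfsg.Agent.Nodes.Reps Cfsg.Agent.Nodes.BNOf
  Cfsg.Agent.Nodes.StabComb Cfsg.Agent.Nodes.Bruhat Cfsg.Agent.Nodes.OppDec Cfsg.Agent.Nodes.LeviDec
  Cfsg.Agent.Nodes.NormalForm Cfsg.Agent.Nodes.SubComb Cfsg.Agent.KFacts.RgdField
  Cfsg.Agent.BpExc.TorCent Cfsg.Agent.BpExc.Tow Cfsg.Agent.BpExc.Fr Cfsg.Agent.H28.RG

variable {I W Y : Type*} [Fintype I] [DecidableEq I] [Group W] [Finite W] [Group Y] {M : CoxeterMatrix I}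
  {cs : CoxeterSystem M W} {A : I → I → ℤ} {h : IsCartan M A} {p : ℕ}
  {J : Type*} [Preorder J] {T : J → Subgroup Y} {n : I → Y} {X : J → (I → ℤ) → Subgroup Y}

/-! ### functionals -/

variable (cs h) in
/-- a functional is dominant in some chamber -/
theorem exists_chamber (mu : (I → ℤ) →+ ℤ) : ∃ w : W, ∀ x, IsRoot cs h x → 0 < mu x → 0 ≤ rep cs h w x := by
  obtain ⟨w, hw⟩ := Cfsg.Agent.KFacts.RgdPar.exists_dom (cs := cs) (h := h) mu
  refine ⟨w⁻¹, fun x hx h0 => ?_⟩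
  rcases (hx.act w⁻¹).pos_or_neg with h1 | h1
  · exact h1
  · exfalso
    have h2 : mu x = ∑ i, (rep cs h w⁻¹ x) i * mu (rep cs h w (sr i)) := by
      have h3 : rep cs h w⁻¹ x = ∑ i, (rep cs h w⁻¹ x) i • (sr i : I → ℤ) := by
        funext j
        simp [sr, Finset.sum_apply, Pi.single_apply]
      conv_lhs => rw [← rep_apply_inv (cs := cs) (h := h) w x, h3]
      rw [map_sum, map_sum]
      refine Finset.sum_congr rfl fun i _ => ?_
      rw [map_zsmul, map_zsmul, smul_eq_mul]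
    have h4 : mu x ≤ 0 := by
      rw [h2]
      exact Finset.sum_nonpos fun i _ => mul_nonpos_of_nonpos_of_nonneg (h1 i) (hw i)
    omega

/-- the height -/
def hgt : (I → ℤ) →+ ℤ where
  toFun x := ∑ i, x i
  map_zero' := by simp
  map_add' x y := by simp [Finset.sum_add_distrib]

theorem hgt_apply (x : I → ℤ) : hgt x = ∑ i, x i := rfl

omit [Finite W] in
theorem hgt_pos {x : I → ℤ} (hx : IsRoot cs h x) (h0 : 0 ≤ x) : 0 < hgt x := by
  rw [hgt_apply]
  refine lt_of_le_of_ne (Finset.sum_nonneg fun i _ => h0 i) fun h1 => hx.ne_zero ?_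
  funext i
  exact (Finset.sum_eq_zero_iff_of_nonneg fun i _ => h0 i).1 h1.symm i (Finset.mem_univ i)

omit [Finite W] in
theorem hgt_neg {x : I → ℤ} (hx : IsRoot cs h x) (h0 : x ≤ 0) : hgt x < 0 := by
  have h1 := hgt_pos hx.neg (neg_nonneg.2 h0)
  rw [map_neg] at h1
  omega

variable (cs h) in
/-- the heights are bounded -/
theorem exists_bound : ∃ N : ℤ, 0 < N ∧ ∀ x, IsRoot cs h x → |hgt x| < N := by
  have hfin : {x | IsRoot cs h x}.Finite := by
    have h1 : {x | IsRoot cs h x} ⊆ Set.range fun p : W × I => rep cs h p.1 (sr p.2) := by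
      rintro x ⟨w, i, rfl⟩
      exact ⟨(w, i), rfl⟩
    exact (Set.finite_range _).subset h1
  obtain ⟨N, hN⟩ := (hfin.image fun x => |hgt x|).bddAbove
  refine ⟨|N| + 1, by positivity, fun x hx => ?_⟩
  have h1 := hN ⟨x, hx, rfl⟩
  have h2 := le_abs_self N
  have h3 : |hgt x| ≤ N := h1
  omega

/-! ### the centraliser -/

variable {F : Type*} [Field F] {xx : (I → ℤ) → F → Y} {χ : (I → ℤ) → Y → F}
variable (H : Tow cs h p T n X) (C : Coords cs h (TL T) n (XL X) xx χ)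

include H C

/-- the centraliser of `t` in the group generated by the root groups of a chamber -/
theorem cent_chamber {t : Y} (ht : t ∈ TL T) {w : W} {u : Y}
    (hu : u ∈ RGD.Sup (XL X) {x | IsRoot cs h x ∧ 0 ≤ rep cs h w x}) (hc : u * t = t * u) :
    u ∈ RGD.Sup (XL X) {x | x ∈ Sx cs h χ t ∧ 0 ≤ rep cs h w x} := by
  obtain ⟨k, -, hk⟩ := H.exists_rp w
  have ht' : k * t * k⁻¹ ∈ TL T := ((Subgroup.mem_normalizer_iff.1 hk.mem_normalizer) t).1 ht
  have h1 : k * u * k⁻¹ ∈ RGD.Sup (XL X) (RGD.Pos cs h) :=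
    conj_SupL H hk (S' := RGD.Pos cs h) (fun x hx => hx.1) (fun x hx => ⟨hx.1.act _, hx.2⟩) hu
  have h2 : (k * u * k⁻¹) * (k * t * k⁻¹) = (k * t * k⁻¹) * (k * u * k⁻¹) := by
    calc (k * u * k⁻¹) * (k * t * k⁻¹) = k * (u * t) * k⁻¹ := by group
      _ = k * (t * u) * k⁻¹ := by rw [hc]
      _ = _ := by group
  have h3 := mem_Up H C ht' h1 h2
  have h4 := conj_SupL H hk.inv (S := SP cs h χ (k * t * k⁻¹)) (S' := {x | x ∈ Sx cs h χ t ∧ 0 ≤ rep cs h w x})
    (fun x hx => hx.1.1) (fun x hx => ?_) h3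
  · have e : k⁻¹ * (k * u * k⁻¹) * k⁻¹⁻¹ = u := by group
    rwa [e] at h4
  · refine ⟨⟨hx.1.1.act _, ?_⟩, ?_⟩
    · have h5 := C.chi_rp H.nsys hk (hx.1.1.act w⁻¹) ht
      rw [← rep_mul_apply, mul_inv_cancel, map_one, Module.End.one_apply] at h5
      rw [← h5]
      exact hx.1.2
    · rw [← rep_mul_apply, mul_inv_cancel, map_one, Module.End.one_apply]
      exact hx.2

/-- **No fixed points on the unipotent radical.** -/
theorem noFix_lam (lam : (I → ℤ) →+ ℤ) {t : Y} (ht : t ∈ TL T) (hS : ∀ a ∈ Sx cs h χ t, lam a ≤ 0) {u : Y}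
    (hu : u ∈ RGD.Sup (XL X) {a | IsRoot cs h a ∧ 0 < lam a}) (hc : u * t = t * u) : u = 1 := by
  obtain ⟨N, hN0, hN⟩ := exists_bound cs h
  -- first chamber
  have h1 : u ∈ RGD.Sup (XL X) {a | IsRoot cs h a ∧ lam a = 0 ∧ 0 ≤ a} := by
    have hmu : ∃ mu : (I → ℤ) →+ ℤ, ∀ a, mu a = N * lam a + hgt a := ⟨N • lam + hgt, fun a => by simp⟩
    obtain ⟨mu, hval⟩ := hmu
    obtain ⟨w, hw⟩ := exists_chamber cs h mu
    have h2 := cent_chamber H C ht (w := w) (RGD.Sup_mono (S := {a | IsRoot cs h a ∧ 0 < lam a})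
      (S' := {x | IsRoot cs h x ∧ 0 ≤ rep cs h w x}) (fun a ha => ⟨ha.1, hw a ha.1 (by
        rw [hval]
        have h3 := abs_lt.1 (hN a ha.1)
        have h4 : N * 1 ≤ N * lam a := mul_le_mul_of_nonneg_left (by have := ha.2; omega) hN0.le
        omega)⟩) hu) hc
    refine RGD.Sup_mono (S := {x | x ∈ Sx cs h χ t ∧ 0 ≤ rep cs h w x})
      (S' := {a | IsRoot cs h a ∧ lam a = 0 ∧ 0 ≤ a}) (fun a ha => ?_) h2
    have ha0 := hS a ha.1
    have har : IsRoot cs h a := ha.1.1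
    have h3 := abs_lt.1 (hN a har)
    -- `mu a` is not negative
    have h5 : ¬ mu a < 0 := fun h6 => by
      have h7 := hw (-a) har.neg (by rw [map_neg]; omega)
      rw [map_neg] at h7
      exact (har.act w).not_pos_neg ha.2 (neg_nonneg.1 h7)
    rw [hval] at h5
    have h6 : lam a = 0 := by
      by_contra hne
      have h7 : N * lam a ≤ N * (-1) := mul_le_mul_of_nonneg_left (by omega) hN0.le
      omega
    refine ⟨har, h6, ?_⟩
    rcases har.pos_or_neg with h8 | h8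
    · exact h8
    · exfalso
      have h9 := hgt_neg har h8
      rw [h6] at h5
      omega
  -- second chamber
  have hmu : ∃ mu : (I → ℤ) →+ ℤ, ∀ a, mu a = N * lam a - hgt a := ⟨N • lam - hgt, fun a => by simp⟩
  obtain ⟨mu, hval⟩ := hmu
  obtain ⟨w, hw⟩ := exists_chamber cs h mu
  obtain ⟨k, -, hk⟩ := H.exists_rp w
  have h2 : k * u * k⁻¹ ∈ RGD.Sup (XL X) (RGD.Pos cs h) :=
    conj_SupL H hk (S' := RGD.Pos cs h) (fun x hx => hx.1) (fun a ha => ⟨ha.1.act _, hw a ha.1 (by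
      rw [hval]
      have h3 := abs_lt.1 (hN a ha.1)
      have h4 : N * 1 ≤ N * lam a := mul_le_mul_of_nonneg_left (by have := ha.2; omega) hN0.le
      omega)⟩) hu
  have h3 : k * u * k⁻¹ ∈ RGD.Sup (XL X) (Neg cs h) :=
    conj_SupL H hk (S' := Neg cs h) (fun x hx => hx.1) (fun a ha => ⟨ha.1.act _, by
      have h4 := hw (-a) ha.1.neg (by
        rw [map_neg, hval, ha.2.1]
        have := hgt_pos ha.1 ha.2.2
        omega)
      rw [map_neg] at h4
      exact neg_nonneg.1 h4⟩) h1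
  have h4 := eq_one_of_pos_neg H h2 h3
  have e : u = k⁻¹ * (k * u * k⁻¹) * k := by group
  rw [e, h4]
  group

end Cfsg.Agent.H520.MX
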