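import Cfsg.Agent.H520.MX.Up
import Cfsg.Agent.H169.RG.Toral
import Cfsg.Agent.H368.RG.Mix
import Cfsg.Agent.KFacts.RgdInd
import Cfsg.Agent.Nodes.SimplyLaced

/-!
# S3509 MIX, box M4q: `[U, y] = U` for the unipotent radicals (helper520)

`m : MData hp r q K₀`, `α = conj n * m.σ`, `n = z⁻¹ σ z`, `lam` a functional, `UF lam α` the fixed points of `α` in the group
generated by the root groups of the roots `a` with `0 < lam a`: a finite `r`-group, normalised by the `y` in the torus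
with `α y = y`, and `UF lam α ≤ [UF lam α, y]` if `cX y a ≠ 1` for all these `a`.

`cX_ne` : the last condition for `y = ∏ α^i (h_γ c)`, `q ≥ 3`, simply laced.
-/

set_option autoImplicit false
set_option linter.unusedSectionVars false

namespace Cfsg.Agent.H520.MX

open CoxeterSystem Cfsg Cfsg.Lie Cfsg.Lie.ChevalleyDatum
open Cfsg.Agent.ChevalleyStructure Cfsg.Agent.ChevalleyStructure.Elts Cfsg.Agent.ChevalleyStructure.CoxeterGeom
  Cfsg.Agent.ChevalleyStructure.CoxeterGeomTypes Cfsg.Agent.ChevalleyStructure.NPerm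
open Cfsg.Agent.Tits.Roots Cfsg.Agent.Tits.Core Cfsg.Agent.Nodes Cfsg.Agent.Nodes.Reps Cfsg.Agent.Nodes.BNOf
  Cfsg.Agent.Nodes.RGDChev Cfsg.Agent.Nodes.Bruhat Cfsg.Agent.Nodes.NormalForm Cfsg.Agent.Nodes.Coroot
open Cfsg.Agent.KFacts.RgdField Cfsg.Agent.KFacts.RgdChevCoord
open Cfsg.Agent.BpExc Cfsg.Agent.BpExc.TorCent Cfsg.Agent.BpExc.TorChev Cfsg.Agent.BpExc.Tow
  Cfsg.Agent.BpExc.TowChev Cfsg.Agent.BpExc.Fr Cfsg.Agent.BpExc.Pair Cfsg.Agent.BpExc.LangFr Cfsg.Agent.GpExc.Field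
  Cfsg.Agent.BpExc.NInst Cfsg.Agent.BpExc.NChev
open Cfsg.Agent.H469.Exc Cfsg.Agent.H316.U6 Cfsg.Agent.H129.TorusChar Cfsg.Agent.H380.RC

universe u v

/-! ### arithmetic -/


theorem geom_le {q : ℤ} (hq : 3 ≤ q) (e : ℕ → ℤ) : ∀ a : ℕ, (∀ i < a, |e i| ≤ 1) →
    2 * |∑ i ∈ Finset.range a, q ^ i * e i| ≤ q ^ a - 1
  | 0, _ => by simp
  | a + 1, he => by
    have ih := geom_le hq e a fun i hi => he i (by omega)
    have hqa : 0 < q ^ a := by positivity
    have h1 : |q ^ a * e a| ≤ q ^ a := by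
      rw [abs_mul, abs_of_pos hqa]
      exact mul_le_of_le_one_right hqa.le (he a (by omega))
    rw [Finset.sum_range_succ, pow_succ]
    have h2 := abs_add_le (∑ i ∈ Finset.range a, q ^ i * e i) (q ^ a * e a)
    have h3 : q ^ a * 3 ≤ q ^ a * q := mul_le_mul_of_nonneg_left hq hqa.le
    omega

theorem digits_zero {q : ℤ} (hq : 3 ≤ q) (e : ℕ → ℤ) : ∀ a : ℕ, (∀ i < a, |e i| ≤ 1) →
    ∑ i ∈ Finset.range a, q ^ i * e i = 0 → ∀ i < a, e i = 0
  | 0, _, _ => by simp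
  | a + 1, he, h0 => by
    have h1 := geom_le hq e a fun i hi => he i (by omega)
    have hqa : 0 < q ^ a := by positivity
    rw [Finset.sum_range_succ] at h0
    have h2 : e a = 0 := by
      by_contra hne
      have h3 : 1 ≤ |e a| := Int.one_le_abs hne
      have h4 : q ^ a * 1 ≤ |q ^ a * e a| := by
        rw [abs_mul, abs_of_pos hqa]
        exact mul_le_mul_of_nonneg_left h3 hqa.le
      have h5 : q ^ a * e a = -∑ i ∈ Finset.range a, q ^ i * e i := by linarith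
      rw [h5, abs_neg] at h4
      omega
    rw [h2, mul_zero, add_zero] at h0
    intro i hi
    rcases Nat.lt_succ_iff_lt_or_eq.1 hi with h3 | h3
    · exact digits_zero hq e a (fun i hi => he i (by omega)) h0 i h3
    · rw [h3, h2]

theorem not_dvd_sum {q : ℤ} (hq : 3 ≤ q) {a : ℕ} (ha : 2 ≤ a) (e : ℕ → ℤ) (he : ∀ i < a, |e i| ≤ 1)
    (hs : ∑ i ∈ Finset.range a, e i ≠ 0) : ¬ (q ^ a - 1) ∣ ∑ i ∈ Finset.range a, q ^ i * e i := by
  intro hd
  have h1 := geom_le hq e a he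
  have h9 : 9 ≤ q ^ a := by
    calc (9 : ℤ) = 3 ^ 2 := by norm_num
      _ ≤ q ^ 2 := by gcongr
      _ ≤ q ^ a := pow_le_pow_right₀ (by omega) ha
  have h2 : ∑ i ∈ Finset.range a, q ^ i * e i = 0 := by
    by_contra hne
    have h3 := Int.le_of_dvd (abs_pos.2 hne) ((dvd_abs _ _).2 hd)
    omega
  exact hs (Finset.sum_eq_zero fun i hi => digits_zero hq e a he h2 i (Finset.mem_range.1 hi))

theorem not_dvd_two {q : ℤ} (hq : 3 ≤ q) {a : ℕ} (ha : 2 ≤ a) (k : ℕ) {s : ℤ} (hs : |s| = 2) :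
    ¬ (q ^ a - 1) ∣ q ^ k * s := by
  intro hd
  have h9 : 9 ≤ q ^ a := by
    calc (9 : ℤ) = 3 ^ 2 := by norm_num
      _ ≤ q ^ 2 := by gcongr
      _ ≤ q ^ a := pow_le_pow_right₀ (by omega) ha
  have h1 : IsCoprime (q ^ a - 1) q := by
    refine ⟨-1, q ^ (a - 1), ?_⟩
    have : q ^ (a - 1) * q = q ^ a := by rw [← pow_succ]; congr 1; omega
    rw [this]; ring
  have h2 := (h1.pow_right (n := k)).dvd_of_dvd_mul_left hd
  have h3 := Int.le_of_dvd (abs_pos.2 (by intro h; rw [h] at hs; norm_num at hs)) ((dvd_abs _ _).2 h2)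
  omega

/-- the dichotomy -/
def EC (a : ℕ) (e : ℕ → ℤ) : Prop := (∀ i < a, |e i| ≤ 1) ∨ ∃ k < a, |e k| = 2 ∧ ∀ i < a, i ≠ k → e i = 0

theorem not_dvd {q : ℤ} (hq : 3 ≤ q) {a : ℕ} (ha : 2 ≤ a) {e : ℕ → ℤ} (he : EC a e)
    (hs : ∑ i ∈ Finset.range a, e i ≠ 0) : ¬ (q ^ a - 1) ∣ ∑ i ∈ Finset.range a, q ^ i * e i := by
  rcases he with he | ⟨k, hk, h2, h0⟩
  · exact not_dvd_sum hq ha e he hs
  · rw [Finset.sum_eq_single k (fun i hi hne => by rw [h0 i (Finset.mem_range.1 hi) hne, mul_zero])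
      (fun h => absurd (Finset.mem_range.2 hk) h)]
    exact not_dvd_two hq ha k h2

theorem prod_ne_one {k : Type*} [Field k] {c : k} (hc : c ≠ 0) {q a : ℕ} (hq : 3 ≤ q) (ha : 2 ≤ a)
    (ho : orderOf c = q ^ a - 1) {e : ℕ → ℤ} (he : EC a e) (hs : ∑ i ∈ Finset.range a, e i ≠ 0) :
    ∏ i ∈ Finset.range a, c ^ ((q : ℤ) ^ i * e i) ≠ 1 := by
  intro h1
  have h2 : ∀ s : Finset ℕ, ∏ i ∈ s, c ^ ((q : ℤ) ^ i * e i) = c ^ (∑ i ∈ s, (q : ℤ) ^ i * e i) := by
    intro s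
    induction s using Finset.induction_on with
    | empty => simp
    | insert b s hb ih => rw [Finset.prod_insert hb, Finset.sum_insert hb, zpow_add₀ hc, ih]
  rw [h2] at h1
  have h3 : (Units.mk0 c hc) ^ (∑ i ∈ Finset.range a, (q : ℤ) ^ i * e i) = 1 := Units.ext (by
    rw [Units.val_zpow_eq_zpow_val]
    exact h1)
  have h4 := orderOf_dvd_iff_zpow_eq_one.2 h3
  have h5 : orderOf (Units.mk0 c hc) = orderOf c := (orderOf_units (y := Units.mk0 c hc)).symm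
  rw [h5, ho, Nat.cast_sub (Nat.one_le_pow _ _ (by omega)), Nat.cast_pow, Nat.cast_one] at h4
  exact not_dvd (by exact_mod_cast hq) ha he hs h4

section

variable {D : ChevalleyDatum} {l : ℕ} {M : CoxeterMatrix (Fin l)} {hp : IsType D l M} {r q : ℕ} [hr : Fact r.Prime]
  {K₀ : Type v} [Group K₀]

/-- the fixed points of `α` in the group generated by the root groups with `0 < lam` -/
noncomputable def UF (hp : IsType D l M) (r : ℕ) [Fact r.Prime] (lam : (Fin l → ℤ) →+ ℤ) (α : MulAut ↥(D.group (KK r))) :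
    Subgroup ↥(D.group (KK r)) :=
  RGD.Sup (XX D l (KK r)) {a | IsRoot M.toCoxeterSystem hp.isCartan a ∧ 0 < lam a} ⊓ fixedSubgroup α

theorem mem_UF {lam : (Fin l → ℤ) →+ ℤ} {α : MulAut ↥(D.group (KK r))} {u : ↥(D.group (KK r))} :
    u ∈ UF hp r lam α ↔ u ∈ RGD.Sup (XX D l (KK r)) {a | IsRoot M.toCoxeterSystem hp.isCartan a ∧ 0 < lam a} ∧
      α u = u := Iff.rfl

theorem setNeg (hp : IsType D l M) (lam : (Fin l → ℤ) →+ ℤ) :
    {a | IsRoot M.toCoxeterSystem hp.isCartan a ∧ lam a < 0} =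
      {a | IsRoot M.toCoxeterSystem hp.isCartan a ∧ 0 < (-lam) a} := by
  ext a
  simp

/-- the fixed points of `α` are finite -/
theorem finite_fix (m : MData hp r q K₀) {z n : ↥(D.group (KK r))} (hz : z⁻¹ * m.σ z = n) :
    Finite ↥(fixedSubgroup (MulAut.conj n * m.σ)) := by
  have := m.fin
  refine Finite.of_injective (β := ↥(fixedSubgroup m.σ)) (fun y => ⟨z * y * z⁻¹, ?_⟩) ?_
  · have h1 : (MulAut.conj n * m.σ) (y : ↥(D.group (KK r))) = y := y.2
    rw [MulAut.mul_apply, MulAut.conj_apply] at h1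
    show m.σ (z * y * z⁻¹) = z * y * z⁻¹
    rw [map_mul, map_mul, map_inv]
    have h2 : m.σ z = z * n := by rw [← hz]; group
    calc m.σ z * m.σ y * (m.σ z)⁻¹ = z * (n * m.σ y * n⁻¹) * z⁻¹ := by rw [h2]; group
      _ = z * y * z⁻¹ := by rw [h1]
  · intro a b hab
    have h1 : z * (a : ↥(D.group (KK r))) * z⁻¹ = z * b * z⁻¹ := congrArg Subtype.val hab
    exact Subtype.ext (mul_left_cancel (mul_right_cancel h1))

theorem finite_UF (m : MData hp r q K₀) {z n : ↥(D.group (KK r))} (hz : z⁻¹ * m.σ z = n)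
    (lam : (Fin l → ℤ) →+ ℤ) : Finite ↥(UF hp r lam (MulAut.conj n * m.σ)) := by
  have := finite_fix m hz
  exact Finite.of_injective (Subgroup.inclusion (inf_le_right : UF hp r lam (MulAut.conj n * m.σ) ≤ _))
    (Subgroup.inclusion_injective _)

/-- the elements of `UF` are `r`-elements -/
theorem isPGroup_UF (lam : (Fin l → ℤ) →+ ℤ) (α : MulAut ↥(D.group (KK r))) : IsPGroup r ↥(UF hp r lam α) := by
  have := finite_W hp M.toCoxeterSystem
  have H := tow (k := KK r) hp M.toCoxeterSystem (locFin r) r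
  have hXL := XL_eq (k := KK r) hp (locFin r)
  rintro ⟨u, hu, -⟩
  rw [SetLike.mem_coe, ← hXL] at hu
  obtain ⟨j, hj⟩ := H.mem_Sup.1 hu
  obtain ⟨k, hk⟩ := Cfsg.Agent.KFacts.RgdInd.isPGroup_of_fpos (H.rgd j) lam (fun x hx => hx) ⟨u, hj⟩
  have h3 : u ^ r ^ k = 1 := congrArg Subtype.val hk
  exact ⟨k, Subtype.ext h3⟩

/-- the torus normalises `UF` -/
theorem UF_conj (lam : (Fin l → ℤ) →+ ℤ) {α : MulAut ↥(D.group (KK r))} {y : ↥(D.group (KK r))}
    (hy : y ∈ TT D (KK r)) (hα : α y = y) {u : ↥(D.group (KK r))} (hu : u ∈ UF hp r lam α) :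
    y * u * y⁻¹ ∈ UF hp r lam α := by
  have := finite_W hp M.toCoxeterSystem
  have H := tow (k := KK r) hp M.toCoxeterSystem (locFin r) r
  have hXL := XL_eq (k := KK r) hp (locFin r)
  have hTL := TL_eq (k := KK r) hp (locFin r)
  obtain ⟨h1, h2⟩ := mem_UF.1 hu
  refine mem_UF.2 ⟨?_, by rw [map_mul, map_mul, map_inv, hα, h2]⟩
  rw [← hXL] at h1 ⊢
  rw [← hTL] at hy
  exact (Subgroup.mem_normalizer_iff.1 (H.T_le_normalizer
    (S := {a | IsRoot M.toCoxeterSystem hp.isCartan a ∧ 0 < lam a}) (fun x hx => hx.1) hy) u).1 h1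

/-- **No fixed points.** -/
theorem UF_noFix (lam : (Fin l → ℤ) →+ ℤ) {y : ↥(D.group (KK r))} (hy : y ∈ TT D (KK r))
    (hS : ∀ a, IsRoot M.toCoxeterSystem hp.isCartan a → 0 < lam a → cX hp y a ≠ 1) {u : ↥(D.group (KK r))}
    (hu : u ∈ RGD.Sup (XX D l (KK r)) {a | IsRoot M.toCoxeterSystem hp.isCartan a ∧ 0 < lam a})
    (hc : y * u = u * y) : u = 1 := by
  have := finite_W hp M.toCoxeterSystem
  have H := tow (k := KK r) hp M.toCoxeterSystem (locFin r) r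
  have C := coordsL (k := KK r) hp M.toCoxeterSystem (locFin r) r
  have hXL := XL_eq (k := KK r) hp (locFin r)
  have hTL := TL_eq (k := KK r) hp (locFin r)
  have C' : Coords M.toCoxeterSystem hp.isCartan (TL (Tj hp (k := KK r))) (nc hp (KK r)) (XL (Xj hp (k := KK r)))
      (xc hp) (ch hp) := by
    rw [hTL, hXL]; exact C
  refine noFix_lam H C' lam (t := y) (by rw [hTL]; exact hy) (fun a ha => ?_) (by rw [hXL]; exact hu) hc.symm
  by_contra hcon
  refine hS a ha.1 (not_le.1 hcon) ?_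
  rw [cX_root hp M.toCoxeterSystem hy ha.1]
  exact ha.2

/-- **`U ≤ [U, y]`.** -/
theorem UF_le_cmm (m : MData hp r q K₀) {z n : ↥(D.group (KK r))} (hz : z⁻¹ * m.σ z = n)
    (lam : (Fin l → ℤ) →+ ℤ) {y : ↥(D.group (KK r))} (hy : y ∈ TT D (KK r)) (hα : (MulAut.conj n * m.σ) y = y)
    (hS : ∀ a, IsRoot M.toCoxeterSystem hp.isCartan a → 0 < lam a → cX hp y a ≠ 1) :
    UF hp r lam (MulAut.conj n * m.σ) ≤ cmm (UF hp r lam (MulAut.conj n * m.σ)) y := by
  have := finite_UF m hz lam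
  exact Cfsg.Agent.H368.RG.cmm_of_noFix (fun u hu => UF_conj lam hy hα hu)
    (fun u hu hc => UF_noFix lam hy hS (mem_UF.1 hu).1 hc)

end

/-! ### the element -/

section Elt

variable {D : ChevalleyDatum} {l : ℕ} {M : CoxeterMatrix (Fin l)} {hp : IsType D l M} {k : Type u} [Field k]
  {W : Type v} [Group W] [Finite W] {cs : CoxeterSystem M W}

/-- the dichotomy for a root and a family of orthogonal roots, simply laced types -/
theorem ec_cpr {A : Fin l → Fin l → ℤ} {h : IsCartan M A} (h4 : ∀ i j, M i j ≠ 4) (h6 : ∀ i j, M i j ≠ 6) {a : ℕ}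
    {g : ℕ → Fin l → ℤ} (hg : ∀ i < a, IsRoot cs h (g i))
    (ho : ∀ i < a, ∀ j < a, i ≠ j → cpr cs h (g i) (g j) = 0) {b : Fin l → ℤ} (hb : IsRoot cs h b) :
    EC a (fun i => cpr cs h b (g i)) := by
  by_cases hex : ∃ k < a, b = g k ∨ b = -g k
  · obtain ⟨k, hk, hbk⟩ := hex
    refine Or.inr ⟨k, hk, ?_, fun i hi hne => ?_⟩
    · rcases hbk with rfl | rfl
      · show |cpr cs h (g k) (g k)| = 2
        rw [cpr_self cs h (hg k hk)]; rfl
      · show |cpr cs h (-g k) (g k)| = 2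
        rw [cpr_neg cs h _ (hg k hk), cpr_self cs h (hg k hk)]; rfl
    · rcases hbk with rfl | rfl
      · exact ho k hk i hi (Ne.symm hne)
      · show cpr cs h (-g k) (g i) = 0
        rw [cpr_neg cs h _ (hg i hi), ho k hk i hi (Ne.symm hne), neg_zero]
  · push Not at hex
    refine Or.inl fun i hi => ?_
    exact SimplyLaced.abs_cpr_le_one cs h h4 h6 hb (hg i hi) (hex i hi).1 (hex i hi).2

/-- **The characters of `y` are not trivial outside `lam = 0`.** -/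
theorem cX_ne (h4 : ∀ i j, M i j ≠ 4) (h6 : ∀ i j, M i j ≠ 6) {q a : ℕ} (hq : 3 ≤ q) (ha : 2 ≤ a) {c : k}
    (hc : c ≠ 0) (hoc : orderOf c = q ^ a - 1) {g : ℕ → Fin l → ℤ} (hg : ∀ i < a, IsRoot cs hp.isCartan (g i))
    (ho : ∀ i < a, ∀ j < a, i ≠ j → cpr cs hp.isCartan (g i) (g j) = 0) {y : ↥(D.group k)} {b : Fin l → ℤ}
    (hb : IsRoot cs hp.isCartan b)
    (hy : cX hp y b = ∏ i ∈ Finset.range a, c ^ ((q : ℤ) ^ i * cpr cs hp.isCartan b (g i)))
    (hs : ∑ i ∈ Finset.range a, cpr cs hp.isCartan b (g i) ≠ 0) : cX hp y b ≠ 1 := by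
  rw [hy]
  exact prod_ne_one hc hq ha hoc (ec_cpr h4 h6 hg ho hb) hs

end Elt

end Cfsg.Agent.H520.MX
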